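import Mathlib
import Cfsg.Agent.S0493
import Cfsg.Agent.S0735
import Cfsg.Agent.S0736

/-!
# Permutation groups isomorphic to `S ^ l` (helper427, for S3679)

`A ≤ Perm α`, `A ≅ S ^ l`, `l ≥ 2`, `S` non-abelian simple:

* `not_two_hom` : `A` is not `2`-homogeneous;
* `not_hom` : `A` is not `k`-homogeneous, `2 ≤ k`, `2 k ≤ n`;
* `not_trans_two_prime` : `A` is not transitive if the degree is `2 p`, `p` prime, `2 p < 60`;
* `sixty_le`, `exists_orders`.
-/

set_option autoImplicit false
set_option linter.unusedSectionVars false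

namespace Cfsg.Agent.H427.Fc

open Equiv MulAction
open scoped Pointwise

section simple

variable {S : Type*} [Group S] [Finite S]

theorem not_cyclic (hSna : ¬ IsMulCommutative S) : ¬ IsCyclic S := fun h =>
  hSna IsCyclic.isMulCommutative

theorem sixty_le (hS : IsSimpleGroup S) (hSna : ¬ IsMulCommutative S) : 60 ≤ Nat.card S := by
  by_contra hlt
  have h1 := Cfsg.Agent.S0493.result (G := S) (not_cyclic hSna) (by omega)
  omega

/-- elements of two different prime orders -/
theorem exists_orders (hS : IsSimpleGroup S) (hSna : ¬ IsMulCommutative S) :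
    ∃ x y : S, x ≠ 1 ∧ y ≠ 1 ∧ orderOf x ≠ orderOf y := by
  by_contra hcon
  push Not at hcon
  have h60 := sixty_le hS hSna
  have hp := Nat.minFac_prime (n := Nat.card S) (by omega)
  set p := (Nat.card S).minFac with hpdef
  have : Fact p.Prime := ⟨hp⟩
  obtain ⟨x, hx⟩ := exists_prime_orderOf_dvd_card' (G := S) p (Nat.minFac_dvd _)
  have hx1 : x ≠ 1 := by
    rintro rfl
    rw [orderOf_one] at hx
    exact hp.one_lt.ne hx
  have hall : ∀ y : S, y ^ p = 1 := by
    intro y
    by_cases hy : y = 1
    · rw [hy, one_pow]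
    · rw [← hx, hcon x y hx1 hy]
      exact pow_orderOf_eq_one y
  have hPG : IsPGroup p S := fun y => ⟨1, by rw [pow_one]; exact hall y⟩
  have : Nontrivial S := hS.toNontrivial
  have hc : Nontrivial (Subgroup.center S) := hPG.center_nontrivial
  rcases hS.eq_bot_or_eq_top_of_normal (Subgroup.center S) inferInstance with h | h
  · exact (Subgroup.nontrivial_iff_ne_bot _).1 hc h
  · apply hSna
    refine ⟨⟨fun a b => ?_⟩⟩
    have hb : b ∈ Subgroup.center S := by rw [h]; trivial
    exact (Subgroup.mem_center_iff.1 hb a)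

end simple

section perm

variable {α : Type*} [Fintype α] [DecidableEq α] {S : Type*} [Group S] [Finite S] {l : ℕ}
  {A : Subgroup (Perm α)} (e : A ≃* (Fin l → S))

/-- the `i`-th factor -/
def emb (i : Fin l) : S →* A := e.symm.toMonoidHom.comp (MonoidHom.mulSingle (fun _ : Fin l => S) i)

theorem emb_inj (i : Fin l) : Function.Injective (emb e i) := by
  intro a b h
  have h1 : (Pi.mulSingle i a : Fin l → S) = Pi.mulSingle i b := e.symm.injective h
  exact Pi.mulSingle_injective i h1

theorem emb_comm {i j : Fin l} (hij : i ≠ j) (a b : S) : emb e i a * emb e j b = emb e j b * emb e i a := by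
  have h1 : (Pi.mulSingle i a : Fin l → S) * Pi.mulSingle j b = Pi.mulSingle j b * Pi.mulSingle i a :=
    Pi.mulSingle_commute (f := fun _ : Fin l => S) hij a b
  have h2 := congrArg e.symm h1
  rwa [map_mul, map_mul] at h2

theorem emb_conj (i : Fin l) (g : A) (a : S) : g * emb e i a * g⁻¹ = emb e i (e g i * a * (e g i)⁻¹) := by
  apply e.injective
  rw [map_mul, map_mul, map_inv]
  have h1 : ∀ b, e (emb e i b) = Pi.mulSingle i b := fun b => e.apply_symm_apply _
  rw [h1, h1]
  ext j
  by_cases hj : j = i
  · subst hj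
    simp
  · rw [Pi.mul_apply, Pi.mul_apply, Pi.mulSingle_eq_of_ne (M := fun _ => S) hj,
      Pi.mulSingle_eq_of_ne (M := fun _ => S) hj]
    simp

instance emb_range_normal (i : Fin l) : (emb e i).range.Normal := by
  refine ⟨?_⟩
  rintro _ ⟨a, rfl⟩ g
  rw [emb_conj]
  exact ⟨_, rfl⟩

theorem emb_ne_bot [Nontrivial S] (i : Fin l) : (emb e i).range ≠ ⊥ := by
  intro h
  obtain ⟨a, ha⟩ := exists_ne (1 : S)
  have h1 : emb e i a ∈ (emb e i).range := ⟨a, rfl⟩
  rw [h, Subgroup.mem_bot] at h1
  exact ha (emb_inj e i (h1.trans (map_one _).symm))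

/-- an element of the factor `i` fixing a point is trivial if the factor `j` is transitive -/
theorem eq_one_of_fix {i j : Fin l} (hij : i ≠ j) (ht : IsPretransitive (emb e j).range α) {a : S} {x : α}
    (hx : emb e i a • x = x) : a = 1 := by
  apply emb_inj e i
  rw [map_one]
  apply Subtype.ext
  ext y
  obtain ⟨⟨_, b, rfl⟩, hb⟩ := ht.exists_smul_eq x y
  have hb' : emb e j b • x = y := hb
  change emb e i a • y = y
  rw [← hb', smul_smul, emb_comm e hij, mul_smul, hx]

include e in
theorem two_hom_prim (hl : 2 ≤ l) (hS : IsSimpleGroup S) (h2 : IsPretransitive A (Set.powersetCard α 2))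
    (hα : 3 ≤ Fintype.card α) : IsPreprimitive A α := by
  apply (Cfsg.Agent.S0735.result A h2 hα).2
  rintro rfl
  have := hS.toNontrivial
  obtain ⟨a, ha⟩ := exists_ne (1 : S)
  have : emb e ⟨0, by omega⟩ a = emb e ⟨0, by omega⟩ 1 := Subsingleton.elim _ _
  exact ha (emb_inj e _ this)

include e in
/-- **`S ^ l` is not `2`-homogeneous.** -/
theorem not_two_hom (hl : 2 ≤ l) (hS : IsSimpleGroup S) (hSna : ¬ IsMulCommutative S) (hα : 3 ≤ Fintype.card α) :
    ¬ IsPretransitive A (Set.powersetCard α 2) := by
  intro h2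
  have := hS.toNontrivial
  have hprim := two_hom_prim e hl hS h2 hα
  set i : Fin l := ⟨0, by omega⟩ with hi
  set j : Fin l := ⟨1, by omega⟩ with hj
  have hij : i ≠ j := by simp [i, j]
  have hquasi : IsQuasiPreprimitive A α := IsPreprimitive.isQuasiPreprimitive
  have ht : IsPretransitive (emb e j).range α := by
    apply hquasi.isPretransitive_of_normal
    intro hfix
    apply emb_ne_bot e j
    rw [eq_bot_iff]
    intro g hg
    rw [Subgroup.mem_bot]
    apply Subtype.ext
    ext x
    have hx : x ∈ fixedPoints (emb e j).range α := by rw [hfix]; trivial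
    exact hx ⟨g, hg⟩
  obtain ⟨x, y, hx, hy, hxy⟩ := exists_orders hS hSna
  obtain ⟨a⟩ : Nonempty α := Fintype.card_pos_iff.1 (by omega)
  have hxa : emb e i x • a ≠ a := fun h => hx (eq_one_of_fix e hij ht h)
  have hya : emb e i y • a ≠ a := fun h => hy (eq_one_of_fix e hij ht h)
  obtain ⟨g, hg⟩ := Cfsg.Agent.S0735.move_pair A h2 a (emb e i x • a) a (emb e i y • a) hxa.symm hya.symm
  have hconj : ∀ b, g * emb e i b * g⁻¹ = emb e i (e g i * b * (e g i)⁻¹) := emb_conj e i g
  have hord : orderOf (e g i * x * (e g i)⁻¹) = orderOf x := by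
    have : e g i * x * (e g i)⁻¹ = MulAut.conj (e g i) x := rfl
    rw [this]
    exact orderOf_injective (MulAut.conj (e g i)).toMonoidHom (MulAut.conj (e g i)).injective x
  rcases hg with ⟨h3, h4⟩ | ⟨h3, h4⟩
  · -- `g a = a`, `g x a = y a`
    have h5 : emb e i (e g i * x * (e g i)⁻¹) • a = emb e i y • a := by
      rw [← hconj, mul_smul, mul_smul]
      have h6 : g⁻¹ • a = a := by
        rw [inv_smul_eq_iff]; exact h3.symm
      rw [h6]
      exact h4
    have h7 : y⁻¹ * (e g i * x * (e g i)⁻¹) = 1 := by
      apply eq_one_of_fix e hij ht (x := a)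
      rw [map_mul, mul_smul, h5, map_inv, inv_smul_smul]
    rw [inv_mul_eq_one] at h7
    exact hxy (by rw [← hord, ← h7])
  · -- `g a = y a`, `g x a = a`
    have h5 : emb e i ((e g i * x * (e g i)⁻¹) * y) • a = a := by
      rw [map_mul, mul_smul, ← h3, ← hconj, mul_smul, mul_smul, inv_smul_smul]
      exact h4
    have h7 := eq_one_of_fix e hij ht h5
    rw [mul_eq_one_iff_eq_inv] at h7
    apply hxy
    rw [← hord, h7, orderOf_inv]

include e in
/-- **`S ^ l` is not `k`-homogeneous**, `2 ≤ k ≤ n / 2`. -/
theorem not_hom (hl : 2 ≤ l) (hS : IsSimpleGroup S) (hSna : ¬ IsMulCommutative S) {k : ℕ} (hk : 2 ≤ k)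
    (hkn : 2 * k ≤ Fintype.card α) : ¬ IsPretransitive A (Set.powersetCard α k) := by
  induction k, hk using Nat.le_induction with
  | base => exact not_two_hom e hl hS hSna (by omega)
  | succ k hk ih =>
    intro h
    refine ih (by omega) ?_
    have h1 := Cfsg.Agent.S0736.result A (k := k + 1) (by omega) h (fun q _ hqk => by
      have := Nat.le_of_dvd (by omega) hqk
      omega)
    exact h1

/-- a simple group of order at least three has no subgroup of index two -/
theorem no_index_two_simple {X : Type*} [Group X] [Finite X] (hX : IsSimpleGroup X) (h3 : 3 ≤ Nat.card X)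
    (K : Subgroup X) : K.index ≠ 2 := by
  intro h
  have hn : K.Normal := Subgroup.normal_of_index_eq_two h
  rcases hX.eq_bot_or_eq_top_of_normal K hn with rfl | rfl
  · rw [Subgroup.index_bot] at h
    omega
  · rw [Subgroup.index_top] at h
    omega

include e in
/-- `S ^ l` has no subgroup of index two -/
theorem no_index_two (hS : IsSimpleGroup S) (hSna : ¬ IsMulCommutative S) (K : Subgroup A) : K.index ≠ 2 := by
  intro h
  have h60 := sixty_le hS hSna
  have hn : K.Normal := Subgroup.normal_of_index_eq_two h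
  have h1 : ∀ i (a : S), emb e i a ∈ K := by
    intro i
    have h2 : (K.comap (emb e i)).index ∣ 2 := by
      rw [Subgroup.index_comap, ← h]
      exact Subgroup.relIndex_dvd_index_of_normal _ _
    rcases hS.eq_bot_or_eq_top_of_normal (K.comap (emb e i)) inferInstance with h3 | h3
    · rw [h3, Subgroup.index_bot] at h2
      have := Nat.le_of_dvd (by norm_num) h2
      omega
    · intro a
      have : a ∈ K.comap (emb e i) := by rw [h3]; trivial
      exact this
  have h4 : K = ⊤ := by
    rw [eq_top_iff]
    intro g _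
    have h5 : e g ∈ K.comap e.symm.toMonoidHom := Subgroup.pi_mem_of_mulSingle_mem _ fun i => h1 i (e g i)
    have h6 : e.symm (e g) ∈ K := h5
    rwa [e.symm_apply_apply] at h6
  rw [h4, Subgroup.index_top] at h
  omega

include e in
/-- **`S ^ l` is not transitive** if the degree is twice a prime and less than sixty. -/
theorem not_trans_two_prime (hl : 2 ≤ l) (hS : IsSimpleGroup S) (hSna : ¬ IsMulCommutative S) {p : ℕ} (hp : p.Prime)
    (hn : Fintype.card α = 2 * p) (hlt : Fintype.card α < 60) : ¬ IsPretransitive A α := by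
  intro ht
  have h60 := sixty_le hS hSna
  have := hS.toNontrivial
  set i : Fin l := ⟨0, by omega⟩ with hi
  set j : Fin l := ⟨1, by omega⟩ with hj
  have hij : j ≠ i := by simp [i, j]
  have hp2 := hp.two_le
  obtain ⟨x⟩ : Nonempty α := Fintype.card_pos_iff.1 (by omega)
  have hB : IsBlock A (orbit (emb e i).range x) := IsBlock.orbit_of_normal x
  have hcard := hB.ncard_block_mul_ncard_orbit_eq (nonempty_orbit x)
  rw [Nat.card_eq_fintype_card, hn] at hcard
  have hdvd : (orbit (emb e i).range x).ncard ∣ 2 * p := Dvd.intro _ hcard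
  have hNs : IsSimpleGroup (emb e i).range :=
    (MonoidHom.ofInjective (emb_inj e i)).symm.isSimpleGroup
  have hNc : Nat.card (emb e i).range = Nat.card S :=
    (Nat.card_congr (MonoidHom.ofInjective (emb_inj e i)).toEquiv).symm
  have hst : (stabilizer (emb e i).range x).index = (orbit (emb e i).range x).ncard := MulAction.index_stabilizer _ _
  rcases (Nat.dvd_mul.1 hdvd) with ⟨a, b, ha, hb, hab⟩
  rcases (Nat.dvd_prime Nat.prime_two).1 ha with rfl | rfl <;> rcases (Nat.dvd_prime hp).1 hb with rfl | rfl
  · -- a fixed point of a normal subgroup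
    rw [← hab, mul_one] at hst
    apply emb_ne_bot e i
    rw [eq_bot_iff]
    intro g hg
    rw [Subgroup.mem_bot]
    apply Subtype.ext
    ext y
    obtain ⟨c, hc⟩ := ht.exists_smul_eq x y
    have h1 : stabilizer (emb e i).range x = ⊤ := Subgroup.index_eq_one.1 hst
    have h2 : c⁻¹ * g * c ∈ (emb e i).range := by
      have := (emb_range_normal e i).conj_mem g hg c⁻¹
      rwa [inv_inv] at this
    have h3 : (⟨c⁻¹ * g * c, h2⟩ : (emb e i).range) ∈ stabilizer (emb e i).range x := by rw [h1]; trivial
    have h4 : (c⁻¹ * g * c) • x = x := h3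
    rw [mul_smul, mul_smul, hc, inv_smul_eq_iff, hc] at h4
    exact h4
  · -- two blocks
    rw [one_mul] at hab
    rw [← hab] at hcard
    have h1 : (orbit A (orbit (emb e i).range x)).ncard = 2 := by
      have h2 : b * (orbit A (orbit (emb e i).range x)).ncard = b * 2 := by rw [hcard, mul_comm]
      exact Nat.eq_of_mul_eq_mul_left (by omega) h2
    rw [← MulAction.index_stabilizer] at h1
    exact no_index_two e hS hSna _ h1
  · rw [mul_one] at hab
    rw [← hab] at hst
    exact no_index_two_simple hNs (by omega) _ hst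
  · -- transitive
    have h1 : orbit (emb e i).range x = Set.univ := by
      apply Set.eq_of_subset_of_ncard_le (Set.subset_univ _)
      rw [Set.ncard_univ, Nat.card_eq_fintype_card, hn, hab]
    have h2 : IsPretransitive (emb e i).range α := by
      exact (MulAction.isPretransitive_iff_orbit_eq_univ x).2 h1
    have h3 : Nat.card S ≤ Nat.card α := by
      refine Nat.card_le_card_of_injective (fun c : S => emb e j c • x) ?_
      intro c d hcd
      have hcd' : emb e j c • x = emb e j d • x := hcd
      have h4 : emb e j (d⁻¹ * c) • x = x := by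
        rw [map_mul, mul_smul, hcd', map_inv, inv_smul_smul]
      have h5 := eq_one_of_fix e hij h2 h4
      rw [inv_mul_eq_one] at h5
      exact h5.symm
    rw [Nat.card_eq_fintype_card (α := α)] at h3
    omega

end perm

end Cfsg.Agent.H427.Fc
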