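import Cfsg.Agent.H899.Cyc.Fac
import Cfsg.Agent.H663.AltD.Trans
import Cfsg.Agent.H357.NT
import Cfsg.Agent.H529.AltIndex
import Cfsg.Agent.H427.Fc.AltA

/-!
# S3679, the row `T = A_n` (helper427)

`fac_alt` : `A_n = A B`, `A ≅ S ^ l`, `l ≥ 2`, `B ≠ ⊤`: then `|A_n : B| = n` and `B ≅ A_{n-1}`.
-/

set_option autoImplicit false
set_option linter.unusedSectionVars false

namespace Cfsg.Agent.H427.Fc

open Equiv Equiv.Perm MulAction Cfsg.Agent.H899.CG
open scoped Pointwise Nat

theorem sq_not_dvd_factorial {r m : ℕ} (hr : r.Prime) (h : m < 2 * r) : ¬ r ^ 2 ∣ m ! := by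
  intro h1
  have hr2 := hr.two_le
  have hlog : Nat.log r m < 2 := by
    apply Nat.log_lt_of_lt_pow' (by norm_num)
    nlinarith
  rw [Nat.Prime.pow_dvd_factorial_iff hr hlog] at h1
  have h2 : ∑ i ∈ Finset.Ico 1 2, m / r ^ i = m / r := by
    rw [Finset.sum_Ico_succ_top (by norm_num), Finset.Ico_self, Finset.sum_empty, zero_add, pow_one]
  rw [h2] at h1
  have h3 : m / r < 2 := Nat.div_lt_of_lt_mul (by omega)
  omega

/-- a prime in `(n/2, n - 4]` -/
theorem exists_prime_four {n : ℕ} (hn : 9 ≤ n) (h10 : n ≠ 10) (h14 : n ≠ 14) :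
    ∃ p : ℕ, p.Prime ∧ n < 2 * p ∧ p + 4 ≤ n := by
  by_cases h : 45 ≤ n
  · obtain ⟨r, s, hr, -, h1, h2, h3⟩ := Cfsg.Agent.H357.NT.two_primes (n := n - 3) (by omega)
    exact ⟨r, hr, by omega, by omega⟩
  · have key : ∀ n < 45, 9 ≤ n ∧ ¬ (n = 10 ∨ n = 14) → ∃ p < 45, Nat.Prime p ∧ n < 2 * p ∧ p + 4 ≤ n := by decide
    obtain ⟨p, -, hp⟩ := key n (by omega) (by omega)
    exact ⟨p, hp⟩

/-- a prime in `(n/2, n - 3]` -/
theorem exists_prime_three {n : ℕ} (hn : 8 ≤ n) : ∃ p : ℕ, p.Prime ∧ n < 2 * p ∧ p + 3 ≤ n := by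
  by_cases h : 44 ≤ n
  · obtain ⟨r, s, hr, -, h1, h2, h3⟩ := Cfsg.Agent.H357.NT.two_primes (n := n - 3) (by omega)
    exact ⟨r, hr, by omega, by omega⟩
  · have key : ∀ n < 44, 8 ≤ n → ∃ p < 44, Nat.Prime p ∧ n < 2 * p ∧ p + 3 ≤ n := by decide
    obtain ⟨p, -, hp⟩ := key n (by omega) hn
    exact ⟨p, hp⟩

variable {n l : ℕ} {A B : Subgroup (alternatingGroup (Fin n))} {S : Type*} [Group S] [Finite S]

theorem cycW_alt {p : ℕ} (hp : p.Prime) (hn : n < 2 * p) (hpn : p + 3 ≤ n) : CycW (alternatingGroup (Fin n)) p := by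
  have h2 := Cfsg.Agent.H663.AltD.two_mul_card (n := n) (by omega)
  refine (cyc_of_sq hp ?_ ?_).1
  · have h3 : p ∣ 2 * Nat.card (alternatingGroup (Fin n)) := by
      rw [h2]
      exact (hp.dvd_factorial).2 (by omega)
    rcases hp.dvd_mul.1 h3 with h4 | h4
    · have := Nat.le_of_dvd (by norm_num) h4
      omega
    · exact h4
  · intro h3
    apply sq_not_dvd_factorial hp hn
    rw [← h2]
    exact h3.mul_left 2

/-- the copy of `A` in the symmetric group -/
def img (A : Subgroup (alternatingGroup (Fin n))) : Subgroup (Perm (Fin n)) := A.map (alternatingGroup (Fin n)).subtype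

theorem img_equiv (h : Fac (alternatingGroup (Fin n)) A B S l) : Nonempty (img A ≃* (Fin l → S)) := by
  obtain ⟨e⟩ := h.iso
  exact ⟨(A.equivMapOfInjective _ (alternatingGroup (Fin n)).subtype_injective).symm.trans e⟩

/-- a finite set invariant under `B` -/
def Iv (B : Subgroup (alternatingGroup (Fin n))) (D : Finset (Fin n)) : Prop :=
  ∀ g ∈ B, ∀ x ∈ D, (g : Perm (Fin n)) x ∈ D

theorem Iv.compl {D : Finset (Fin n)} (h : Iv B D) : Iv B Dᶜ := by
  intro g hg x hx
  rw [Finset.mem_compl] at hx ⊢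
  intro h1
  apply hx
  have := h g⁻¹ (inv_mem hg) _ h1
  rwa [Subgroup.coe_inv, Equiv.Perm.inv_def, Equiv.symm_apply_apply] at this

theorem Iv.smul_eq {D : Finset (Fin n)} (h : Iv B D) {g : alternatingGroup (Fin n)} (hg : g ∈ B) :
    (g : Perm (Fin n)) • D = D := by
  apply Finset.eq_of_subset_of_card_le
  · intro x hx
    obtain ⟨y, hy, rfl⟩ := Finset.mem_smul_finset.1 hx
    exact h g hg y hy
  · rw [Finset.card_smul_finset]

theorem Iv.union {D E : Finset (Fin n)} (h : Iv B D) (h' : Iv B E) : Iv B (D ∪ E) := by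
  intro g hg x hx
  rw [Finset.mem_union] at hx ⊢
  rcases hx with hx | hx
  · exact Or.inl (h g hg x hx)
  · exact Or.inr (h' g hg x hx)

/-- **The orbits of `B`.** -/
theorem Iv.false (hn : 5 ≤ n) (hS : IsSimpleGroup S) (hSna : ¬ IsMulCommutative S)
    (h : Fac (alternatingGroup (Fin n)) A B S l) {D : Finset (Fin n)} (hD : Iv B D) (h2 : 2 ≤ D.card)
    (h2n : 2 * D.card ≤ n) : False := by
  obtain ⟨e⟩ := img_equiv h
  refine not_hom e h.two_le hS hSna h2 (by rw [Fintype.card_fin]; exact h2n) ?_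
  have htr := Set.powersetCard.isPretransitive_alternatingGroup (α := Fin n) (n := D.card)
    (by rw [Nat.card_eq_fintype_card, Fintype.card_fin]; omega)
  -- every `k`-set is `x • D` with `x ∈ A`
  have key : ∀ K : Set.powersetCard (Fin n) D.card, ∃ x ∈ A, ((x : Perm (Fin n)) • D) = (K : Finset (Fin n)) := by
    intro K
    obtain ⟨t, ht⟩ := htr.exists_smul_eq ⟨D, rfl⟩ K
    obtain ⟨x, hx, y, hy, rfl⟩ := h.fac t
    refine ⟨x, hx, ?_⟩
    have h1 : ((x * y : alternatingGroup (Fin n)) : Perm (Fin n)) • D = (K : Finset (Fin n)) := congrArg Subtype.val ht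
    rw [Subgroup.coe_mul, mul_smul, hD.smul_eq hy] at h1
    exact h1
  refine ⟨fun K L => ?_⟩
  obtain ⟨x, hx, h1⟩ := key K
  obtain ⟨y, hy, h3⟩ := key L
  refine ⟨⟨((y * x⁻¹ : alternatingGroup (Fin n)) : Perm (Fin n)), ⟨y * x⁻¹, A.mul_mem hy (A.inv_mem hx), rfl⟩⟩, ?_⟩
  apply Subtype.ext
  change (((y * x⁻¹ : alternatingGroup (Fin n)) : Perm (Fin n)) • (K : Finset (Fin n))) = (L : Finset (Fin n))
  rw [← h1, ← h3, Subgroup.coe_mul, Subgroup.coe_inv, mul_smul, inv_smul_smul]

theorem Iv.card (hn : 5 ≤ n) (hS : IsSimpleGroup S) (hSna : ¬ IsMulCommutative S)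
    (h : Fac (alternatingGroup (Fin n)) A B S l) {D : Finset (Fin n)} (hD : Iv B D) :
    D.card ≤ 1 ∨ n ≤ D.card + 1 := by
  by_contra hcon
  push Not at hcon
  have hc : Dᶜ.card = n - D.card := by rw [Finset.card_compl, Fintype.card_fin]
  by_cases h2 : 2 * D.card ≤ n
  · exact Iv.false hn hS hSna h hD (by omega) h2
  · exact Iv.false hn hS hSna h hD.compl (by omega) (by omega)

/-- the orbit of a point, as a finite set -/
theorem exists_orbit (B : Subgroup (alternatingGroup (Fin n))) (x : Fin n) :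
    ∃ D : Finset (Fin n), Iv B D ∧ ∀ y, y ∈ D ↔ ∃ g ∈ B, (g : Perm (Fin n)) x = y := by
  classical
  refine ⟨Finset.univ.filter fun y => ∃ g ∈ B, (g : Perm (Fin n)) x = y, ?_, fun y => by simp⟩
  intro g hg y hy
  rw [Finset.mem_filter] at hy ⊢
  obtain ⟨-, k, hk, rfl⟩ := hy
  exact ⟨Finset.mem_univ _, g * k, B.mul_mem hg hk, rfl⟩

/-- `B` fixes a point -/
theorem exists_fix_alt (hn : 8 ≤ n) (hS : IsSimpleGroup S) (hSna : ¬ IsMulCommutative S)
    (h : Fac (alternatingGroup (Fin n)) A B S l) : ∃ a : Fin n, ∀ g ∈ B, (g : Perm (Fin n)) a = a := by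
  obtain ⟨p, hp, hp1, hp2⟩ := exists_prime_three hn
  have hnt : ¬ ∀ a b : Fin n, ∃ x ∈ B, (x : Perm (Fin n)) a = b := fun ht =>
    Cfsg.Agent.H663.AltD.not_dvd h.ne_top ht hp hp1 hp2 (h.dvd (cycW_alt hp hp1 hp2))
  push Not at hnt
  obtain ⟨x, y, hxy⟩ := hnt
  obtain ⟨D, hD, hDm⟩ := exists_orbit B x
  have hx : x ∈ D := (hDm x).2 ⟨1, B.one_mem, rfl⟩
  have hy : y ∉ D := fun hy => by
    obtain ⟨g, hg, hgx⟩ := (hDm y).1 hy
    exact hxy g hg hgx
  have hc : Dᶜ.card = n - D.card := by rw [Finset.card_compl, Fintype.card_fin]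
  have hDn : D.card ≤ n := by simpa using D.card_le_univ
  have key : ∀ E : Finset (Fin n), Iv B E → E.card = 1 → ∃ a : Fin n, ∀ g ∈ B, (g : Perm (Fin n)) a = a := by
    intro E hE h1
    obtain ⟨a, rfl⟩ := Finset.card_eq_one.1 h1
    exact ⟨a, fun g hg => Finset.mem_singleton.1 (hE g hg a (Finset.mem_singleton_self a))⟩
  rcases Iv.card (by omega) hS hSna h hD with h1 | h1
  · exact key D hD (by
      have : 0 < D.card := Finset.card_pos.2 ⟨x, hx⟩
      omega)
  · exact key Dᶜ hD.compl (by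
      have : 0 < Dᶜ.card := Finset.card_pos.2 ⟨y, Finset.mem_compl.2 hy⟩
      omega)

/-- `B` is transitive on the other points -/
theorem trans_rest (hn : 8 ≤ n) (hS : IsSimpleGroup S) (hSna : ¬ IsMulCommutative S)
    (h : Fac (alternatingGroup (Fin n)) A B S l) {a : Fin n} (ha : ∀ g ∈ B, (g : Perm (Fin n)) a = a) {x y : Fin n}
    (hx : x ≠ a) (hy : y ≠ a) : ∃ g ∈ B, (g : Perm (Fin n)) x = y := by
  obtain ⟨D, hD, hDm⟩ := exists_orbit B x
  have hxD : x ∈ D := (hDm x).2 ⟨1, B.one_mem, rfl⟩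
  have haD : a ∉ D := by
    intro h1
    obtain ⟨g, hg, hgx⟩ := (hDm a).1 h1
    exact hx ((g : Perm (Fin n)).injective (hgx.trans (ha g hg).symm))
  have haI : Iv B {a} := by
    intro g hg z hz
    rw [Finset.mem_singleton] at hz ⊢
    rw [hz, ha g hg]
  rw [← hDm]
  rcases Iv.card (by omega) hS hSna h hD with h1 | h1
  · exfalso
    have h2 : ({a} ∪ D).card = 1 + D.card := by
      rw [Finset.card_union_of_disjoint (Finset.disjoint_singleton_left.2 haD), Finset.card_singleton]
    have h3 : 0 < D.card := Finset.card_pos.2 ⟨x, hxD⟩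
    exact Iv.false (by omega) hS hSna h (haI.union hD) (by omega) (by omega)
  · have h2 : D = {a}ᶜ := by
      apply Finset.eq_of_subset_of_card_le
      · intro z hz
        rw [Finset.mem_compl, Finset.mem_singleton]
        rintro rfl
        exact haD hz
      · rw [Finset.card_compl, Fintype.card_fin, Finset.card_singleton]
        omega
    rw [h2, Finset.mem_compl, Finset.mem_singleton]
    exact hy

/-! ### the stabiliser of a point -/

section psi

variable {m : ℕ} {a : Fin n} (f : Fin m ≃ {x : Fin n // x ≠ a})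

/-- `A_m → A_n` on the points `≠ a` -/
noncomputable def psi : alternatingGroup (Fin m) →* alternatingGroup (Fin n) :=
  ((Perm.ofSubtype (p := fun x : Fin n => x ≠ a)).comp
    (f.permCongrHom.toMonoidHom.comp (alternatingGroup (Fin m)).subtype)).codRestrict (alternatingGroup (Fin n))
    (fun σ => by
      rw [Perm.mem_alternatingGroup]
      change sign (Perm.ofSubtype (f.permCongr (σ : Perm (Fin m)))) = 1
      rw [sign_ofSubtype, sign_permCongr]
      exact Perm.mem_alternatingGroup.1 σ.2)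

theorem psi_val (σ : alternatingGroup (Fin m)) :
    ((psi f σ : alternatingGroup (Fin n)) : Perm (Fin n)) = Perm.ofSubtype (f.permCongr (σ : Perm (Fin m))) := rfl

theorem psi_apply (σ : alternatingGroup (Fin m)) (i : Fin m) :
    ((psi f σ : alternatingGroup (Fin n)) : Perm (Fin n)) (f i) = f ((σ : Perm (Fin m)) i) := by
  rw [psi_val, Perm.ofSubtype_apply_coe]
  simp

theorem psi_injective : Function.Injective (psi f) := by
  intro σ τ h
  have h1 := congrArg Subtype.val h
  rw [psi_val, psi_val] at h1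
  exact Subtype.ext (f.permCongr.injective (Perm.ofSubtype_injective h1))

theorem exists_psi {g : alternatingGroup (Fin n)} (hg : (g : Perm (Fin n)) a = a) : ∃ σ, psi f σ = g := by
  have hmem : ∀ x, (g : Perm (Fin n)) x ≠ a ↔ x ≠ a := by
    intro x
    constructor
    · rintro hx rfl
      exact hx hg
    · intro hx e
      exact hx ((g : Perm (Fin n)).injective (by rw [e, hg]))
  have hsub : Perm.ofSubtype ((g : Perm (Fin n)).subtypePerm (p := fun x => x ≠ a) hmem) = (g : Perm (Fin n)) := by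
    apply Perm.ofSubtype_subtypePerm
    intro x hx e
    apply hx
    rw [e, hg]
  have hs : sign ((g : Perm (Fin n)).subtypePerm (p := fun x => x ≠ a) hmem) = 1 := by
    rw [← sign_ofSubtype, hsub]
    exact Perm.mem_alternatingGroup.1 g.2
  refine ⟨⟨f.symm.permCongr ((g : Perm (Fin n)).subtypePerm (p := fun x => x ≠ a) hmem), ?_⟩, ?_⟩
  · rw [Perm.mem_alternatingGroup, sign_permCongr]
    exact hs
  · apply Subtype.ext
    rw [psi_val]
    change Perm.ofSubtype (f.permCongr (f.symm.permCongr _)) = _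
    rw [← Equiv.permCongr_symm, Equiv.apply_symm_apply, hsub]

end psi

/-- **The row `T = A_n` of S3679.** -/
theorem fac_alt (hS : IsSimpleGroup S) (hSna : ¬ IsMulCommutative S)
    (h : Fac (alternatingGroup (Fin n)) A B S l) :
    B.index = n ∧ Nonempty (B ≃* alternatingGroup (Fin (n - 1))) := by
  have h60 := sixty_le hS hSna
  have h2 := h.two_le
  have hdvd := h.pow_dvd_card
  have hsq : Nat.card S ^ 2 ∣ Nat.card (alternatingGroup (Fin n)) := (pow_dvd_pow _ h2).trans hdvd
  have hn9 : 9 ≤ n := by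
    by_contra hlt
    have h8 : Nat.card (alternatingGroup (Fin n)) ∣ 20160 := by
      rcases Nat.lt_or_ge n 2 with h3 | h3
      · have : Nat.card (alternatingGroup (Fin n)) = 1 := by
          rw [Nat.card_eq_one_iff_unique]
          have : n = 0 ∨ n = 1 := by omega
          rcases this with rfl | rfl
          · exact ⟨⟨fun a b => Subtype.ext (Subsingleton.elim _ _)⟩, inferInstance⟩
          · exact ⟨⟨fun a b => Subtype.ext (Subsingleton.elim _ _)⟩, inferInstance⟩
        rw [this]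
        exact one_dvd _
      · have h4 := Cfsg.Agent.H663.AltD.two_mul_card (n := n) h3
        have h5 : n ! ∣ 8 ! := Nat.factorial_dvd_factorial (by omega)
        rw [← h4, show (8 ! : ℕ) = 2 * 20160 by decide] at h5
        exact Nat.dvd_of_mul_dvd_mul_left (by norm_num) h5
    have h9 := hsq.trans h8
    have h10 : Nat.card S < 142 := by
      by_contra hge
      have h11 := Nat.le_of_dvd (by norm_num) h9
      nlinarith
    have key : ∀ s < 142, s ^ 2 ∣ 20160 → s < 60 := by decide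
    have := key _ h10 h9
    omega
  obtain ⟨a, ha⟩ := exists_fix_alt (by omega) hS hSna h
  -- `n ≠ 10, 14`
  have hAt : IsPretransitive (img A) (Fin n) := by
    have := alternatingGroup.isPretransitive_of_three_le_card (Fin n)
      (by rw [Nat.card_eq_fintype_card, Fintype.card_fin]; omega)
    have key : ∀ x : Fin n, ∃ g ∈ A, (g : Perm (Fin n)) a = x := by
      intro x
      obtain ⟨t, ht⟩ := this.exists_smul_eq a x
      obtain ⟨g, hg, y, hy, rfl⟩ := h.fac t
      refine ⟨g, hg, ?_⟩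
      have h1 : ((g * y : alternatingGroup (Fin n)) : Perm (Fin n)) a = x := ht
      rw [Subgroup.coe_mul, Perm.mul_apply, ha y hy] at h1
      exact h1
    refine ⟨fun x y => ?_⟩
    obtain ⟨g, hg, hgx⟩ := key x
    obtain ⟨k, hk, hkx⟩ := key y
    refine ⟨⟨((k * g⁻¹ : alternatingGroup (Fin n)) : Perm (Fin n)), ⟨k * g⁻¹, A.mul_mem hk (A.inv_mem hg), rfl⟩⟩, ?_⟩
    change ((k * g⁻¹ : alternatingGroup (Fin n)) : Perm (Fin n)) x = y
    rw [← hgx, ← hkx, Subgroup.coe_mul, Subgroup.coe_inv, Perm.mul_apply, Equiv.Perm.inv_def, Equiv.symm_apply_apply]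
  obtain ⟨e⟩ := img_equiv h
  have h10 : n ≠ 10 := by
    rintro rfl
    exact not_trans_two_prime e h2 hS hSna (p := 5) (by norm_num) (by simp) (by simp) hAt
  have h14 : n ≠ 14 := by
    rintro rfl
    exact not_trans_two_prime e h2 hS hSna (p := 7) (by norm_num) (by simp) (by simp) hAt
  -- `B` is the stabiliser of `a`
  have hcard : Fintype.card {x : Fin n // x ≠ a} = n - 1 := by
    rw [Fintype.card_subtype_compl, Fintype.card_fin, Fintype.card_subtype_eq]
  have f : Fin (n - 1) ≃ {x : Fin n // x ≠ a} := (Fintype.equivFinOfCardEq hcard).symm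
  have hmap : (B.comap (psi f)).map (psi f) = B := by
    apply le_antisymm (Subgroup.map_comap_le _ _)
    intro g hg
    obtain ⟨σ, rfl⟩ := exists_psi f (ha g hg)
    exact ⟨σ, hg, rfl⟩
  have hcB : Nat.card (B.comap (psi f)) = Nat.card B := by
    conv_rhs => rw [← hmap]
    rw [Subgroup.card_map_of_injective (psi_injective f)]
  obtain ⟨p, hp, hp1, hp2⟩ := exists_prime_four hn9 h10 h14
  have htop : B.comap (psi f) = ⊤ := by
    by_contra hne
    refine Cfsg.Agent.H663.AltD.not_dvd hne ?_ hp (n := n - 1) (by omega) (by omega) ?_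
    · intro x y
      obtain ⟨g, hg, hgx⟩ := trans_rest (by omega) hS hSna h ha (f x).2 (f y).2
      obtain ⟨σ, rfl⟩ := exists_psi f (ha g hg)
      refine ⟨σ, hg, ?_⟩
      rw [psi_apply] at hgx
      exact f.injective (Subtype.ext hgx)
    · rw [hcB]
      exact h.dvd (cycW_alt hp hp1 (by omega))
  have hcard2 : 2 * Nat.card B = (n - 1)! := by
    rw [← hcB, htop, Subgroup.card_top, Cfsg.Agent.H663.AltD.two_mul_card (n := n - 1) (by omega)]
  have hcard3 := Cfsg.Agent.H663.AltD.two_mul_card (n := n) (by omega)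
  have hidx : B.index = n := by
    rw [← Subgroup.card_mul_index B, ← mul_assoc, hcard2] at hcard3
    have h5 : n ! = (n - 1)! * n := by
      obtain ⟨k, rfl⟩ : ∃ k, n = k + 1 := ⟨n - 1, by omega⟩
      rw [Nat.factorial_succ, Nat.add_sub_cancel, mul_comm]
    rw [h5] at hcard3
    exact Nat.eq_of_mul_eq_mul_left (Nat.factorial_pos _) hcard3
  exact ⟨hidx, Cfsg.Agent.H529.AltIndex.mulEquiv_of_index (by omega) (MulEquiv.refl _) B hidx⟩

end Cfsg.Agent.H427.Fc
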